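import Cfsg.Agent.Lib.FusionExamples.LySub.LyA.Data

/-! Generated coset-enumeration certificate: LYP over <a>, 60 cosets. -/

set_option autoImplicit false
set_option maxRecDepth 20000
set_option linter.all false
set_option Elab.async false

namespace CfsgLib.FusionExamples.LySub.LyA

open CfsgLib.SporRecognition.CosetCert

def codes59 : List Nat := [
  0x9,
  0x780000780000020000000000050000010000000003,
  0xa0000000000030000770000770000040000020003,
  0x700000100000400000c0000060001,
  0x600007a0000080000000000110000070000010003,
  0xd00000500000100007700000400007c00001600000b0002,
  0x8200001500000900007c00001600000b0003,
  0x1200008000007e00000000001700007d0000040003,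
  0x1c00000000000f0000050000790000100000080003,
  0x1900000d00001000001e00000f0001,
  0x7b00000a0000140000000000230000130000050003,
  0x250000130000160000280000140001,
  0x8200008300001a00000000002d0000190000070003,
  0x8700000f00000500000100007800000200007900001000001c00003000000000002f00000e0004,
  0x1f0000110000070000790000100000880000320000190002,
  0x9400003100001b0000880000320000190003,
  0x2e00009000008a00000000003300008900000d0003,
  0x3800000000002100001100007f0000220000110003,
  0x3500001f00002200003a00001d0001,
  0x2300001300000900000c00008500002c00000000003b0000120002,
  0x8c00002400003c00000000009d00003b0000120003,
  0x7b00000300007700000400000a00001400008b00003e00000000003d0000230000130000050004,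
  0x2400008c00002600000000003f00002500000a0003,
  0x400000a400008e00000000004100008d0000130003,
  0x1700007d00007f00002200009a00000000004300002900000c0002,
  0x8600001800002a00000000004300002900000c0003,
  0x4500002900002c0000480000240001,
  0x4d00002f0000320000500000280001,
  0x4d00009100002f00001b00001e00009700005400002a0002,
  0xb000005300003300009700005400002a0003,
  0x940000950000360000000000550000350000100003,
  0x5900003b00003e00005c00002e0001,
  0x3f00002500008b00003e0000a200005c00000000005d0000200002,
  0xa400004000005e0000000000b700005d0000200003,
  0xa600002700008100000d00007a00000800007f00002200003800005800000000005f0000210004,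
  0xa60000420000600000000000bb00005f0000210003,
  0x4900002d0000190000840000280000a50000620000310002,
  0xc00000610000410000a50000620000310003,
  0x8600000b00007c00001600008300001a00008f00004c00000000006300004300002900000c0004,
  0xc30000630000430000a90000640000320003,
  0x6600000000004700009d00009f0000480000240003,
  0xb00000b10000ae0000000000690000ad0000270003,
  0x3300008900008f00004c0000c600000000006b00005100001a0002,
  0x9800003400005200000000006b00005100001a0003,
  0x570000a70000640000cb0000360001,
  0xbb00005f00004100008d0000a30000000000cd0000cf00002c0002,
  0xbe00000000005500003500009400003100001b00001e0000340000520000cd0000cf00002c0004,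
  0xbd00005700003700003a00000000009b0000b30000d40000300002,
  0xaa0000460000000000450000440000a800003700003a0000d600003900009a0000a70000220004,
  0xa90000640000c40000000000650000ab0000d70000450000150002,
  0x6700004900004c0000d90000330001,
  0x5100005400000000005d0000d10000290001,
  0xd400005f00006200000000006d00002b0001,
  0x9e0000a000005a00000000006f00005900001e0003,
  0x9e00002b00001700007d00001200002000009600005000006a00000000006f00005900001e0004,
  0xc00000c10000680000000000710000670000250003,
  0xc000006100004100008d00004000005e0000b90000b50000700000000000710000670000250004,
  0xb000005300003300008900002e00004a0000c20000df0000000000730000690000ad0000270004,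
  0xe90000730000690000c900007400003a0003,
  0xe80000e40000740000000000750000390001,
  0x710000670000c20000df0000ec0000ed0000000000750000390002]

theorem steps59 : allList (step inv fact rule 9 10) codes59 59 = true := by
  decide +kernel

theorem covers1 : Covers (step inv fact rule 9 10) 59 120 :=
  (Covers.of_list steps59 rfl : Covers _ 59 120)

end CfsgLib.FusionExamples.LySub.LyA
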